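import Cfsg.Agent.FS.Real.Grp
import Cfsg.Agent.H333.OmInv
import Cfsg.Agent.S0292

/-!
# S5288, models: orthogonal groups and commutator subgroups (helper46)

* `mIso` : the isometry group of a quadratic form with an invertible Gram matrix;
* `mCom` : the commutator subgroup; the high bits of a code write the element as a commutator;
* `mO7` : `Ω₇(3)`.
-/

set_option autoImplicit false

namespace Cfsg.Agent.FS.N.Sg

open Cfsg Matrix Cfsg.Agent.FS.Real
open scoped commutatorElement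

section iso

variable {F : Type} [Field F] (K : RM F) {ι : Type} [Fintype ι] [DecidableEq ι] {n : ℕ} (e : ι ≃ Fin n)

/-- check: an isometry -/
noncomputable def isI (n J a : ℕ) : Bool := Nat.beq (K.mmul n (K.mmul n (K.mtr n a) J) a) J

theorem ex_iso {Q : (ι → F) → F} {J J' : ℕ} (hJ : Nat.beq (K.mmul n J' J) (K.msc n 1) = true) {c : F}
    (hQ : ∀ v, Q v = c * (v ⬝ᵥ K.toM e J *ᵥ v)) {a : ℕ} (h : isI K n J a = true) :
    ∃ g : isometryGroup F Q, ((g : GL ι F) : Matrix ι ι F) = K.toM e a := by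
  have h1 : (K.toM e a)ᵀ * K.toM e J * K.toM e a = K.toM e J := by
    rw [← K.toM_mtr, ← K.toM_mmul, ← K.toM_mmul, beq_eq h]
  have h2 : K.toM e J' * K.toM e J = 1 := by rw [← K.toM_mmul, beq_eq hJ, K.toM_one]
  have h3 : K.toM e J' * ((K.toM e a)ᵀ * K.toM e J) * K.toM e a = 1 := by rw [Matrix.mul_assoc, h1, h2]
  refine ⟨⟨⟨K.toM e a, _, mul_eq_one_comm.1 h3, h3⟩, fun u _ => ?_⟩, rfl⟩
  show Q (K.toM e a *ᵥ u) = Q u
  rw [hQ, hQ, ← Matrix.vecMul_transpose, ← Matrix.dotProduct_mulVec, Matrix.vecMul_transpose, Matrix.mulVec_mulVec,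
    Matrix.mulVec_mulVec, h1]

/-- The model of an isometry group. -/
noncomputable def mIso {Q : (ι → F) → F} {J J' : ℕ} (hJ : Nat.beq (K.mmul n J' J) (K.msc n 1) = true) {c : F}
    (hQ : ∀ v, Q v = c * (v ⬝ᵥ K.toM e J *ᵥ v)) : Mdl (isometryGroup F Q) :=
  K.mdl e ((Units.coeHom _).comp (isometryGroup F Q).subtype) (Units.val_injective.comp Subtype.val_injective)
    (fun a _ => isI K n J a) fun _ _ h => ex_iso K e hJ hQ h

end iso

/-- The model of the commutator subgroup. -/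
noncomputable def mCom {G : Type} [Group G] (M : Mdl G) (W : ℕ) : Mdl (commutator G) where
  R c h := M.R c h.1
  mul := M.mul
  one := M.one
  eqv := M.eqv
  neq := M.neq
  ok a _ := force (get W a 1) fun b => force (get W a 2) fun c =>
    M.ok a 0 && M.ok b 0 && M.ok c 0 && M.eqv (M.mul (M.mul a c) b) (M.mul b c)
  R_one := M.R_one
  R_mul := fun h k => M.R_mul h k
  eq_of := fun h k e => Subtype.ext (M.eq_of h k e)
  ne_of := fun h k e e' => M.ne_of h k e (congrArg Subtype.val e')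
  ex_of := fun h => by
    simp only [force_eq, Bool.and_eq_true] at h
    obtain ⟨g, h1⟩ := M.ex_of h.1.1.1
    obtain ⟨u, h2⟩ := M.ex_of h.1.1.2
    obtain ⟨v, h3⟩ := M.ex_of h.1.2
    have h4 := M.eq_of (M.R_mul (M.R_mul h1 h3) h2) (M.R_mul h2 h3) h.2
    refine ⟨⟨g, ?_⟩, h1⟩
    rw [show g = ⁅u, v⁆ by rw [commutatorElement_def, ← h4, mul_inv_cancel_right, mul_inv_cancel_right]]
    exact Subgroup.commutator_mem_commutator (Subgroup.mem_top u) (Subgroup.mem_top v)

/-- the coordinates -/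
def e7 : Unit ⊕ (Fin 3 ⊕ Fin 3) ≃ Fin 7 :=
  (Equiv.sumCongr finOneEquiv.symm finSumFinEquiv).trans finSumFinEquiv

/-- the Gram matrix, which is its own inverse -/
def J7 : ℕ := 0x40004000440004000400002

theorem toM_J7 : k3.toM e7 J7 = Matrix.fromBlocks (2 : Matrix Unit Unit (ZMod 3)) 0 0 (Matrix.fromBlocks 0 1 1 0) := by
  ext i j
  rcases i with i | i | i <;> rcases j with j | j | j <;> revert i j <;> decide +kernel

theorem q7 (v : Unit ⊕ (Fin 3 ⊕ Fin 3) → ZMod 3) : quadFormOdd 3 (ZMod 3) v = 2 * (v ⬝ᵥ k3.toM e7 J7 *ᵥ v) := by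
  have h3 : (3 : ZMod 3) = 0 := rfl
  rw [toM_J7, Matrix.fromBlocks_mulVec, Matrix.fromBlocks_mulVec]
  simp only [quadFormOdd, dotProduct, Fintype.sum_sum_type, Fin.sum_univ_three, Matrix.zero_mulVec, Matrix.one_mulVec,
    Matrix.ofNat_mulVec, add_zero, zero_add, Sum.elim_inl, Sum.elim_inr, Function.comp_apply, Fintype.sum_unique,
    Pi.smul_apply, smul_eq_mul, PUnit.default_eq_unit]
  linear_combination (-(v (.inl ()) ^ 2 + v (.inr (.inl 0)) * v (.inr (.inr 0)) +
    v (.inr (.inl 1)) * v (.inr (.inr 1)) + v (.inr (.inl 2)) * v (.inr (.inr 2)))) * h3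

/-- `Ω₇(3)` -/
abbrev O7 : Type := Omega (ZMod 3) (quadFormOdd 3 (ZMod 3))

/-- The model of `Ω₇(3)`. -/
noncomputable def mO7 : Mdl O7 := mCom (mIso k3 e7 (J' := J7) (by decide +kernel) q7) 98

theorem card_O7 : Nat.card O7 = 4585351680 := by
  have h1 : 2 * Nat.card (O7 ⧸ Subgroup.center O7) = 9170703360 :=
    (S0292.result (F := ZMod 3) (q := 3) rfl (by decide) 3 le_rfl).trans (by decide)
  have h2 := (Subgroup.center O7).card_eq_card_quotient_mul_card_subgroup
  rw [Subgroup.card_eq_one.2 (H333.OmInv.center_omega_seven (by decide))] at h2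
  omega

end Cfsg.Agent.FS.N.Sg
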